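import Mathlib
import Cfsg.Agent.Lib.Helper25.Monomial
import Cfsg.Agent.Lib.Helper25.FS5
import Cfsg.Agent.Lib.Helper25.GalSum
import Cfsg.Agent.Lib.Helper2.CharInner

set_option autoImplicit false

namespace Cfsg.Agent.Lib.Helper2.PrimeIdx

open scoped ComplexConjugate
open Cfsg Cfsg.Agent.Lib.Helper25

universe u

variable {G : Type u} [Group G]

theorem sq_le_card [Finite G] (J : Finset (IrrCharacter G)) :
    ∑ ψ ∈ J, (charDegree (ψ : G → ℂ)) ^ 2 ≤ Nat.card G := by
  classical
  have : Fintype G := Fintype.ofFinite _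
  have := Cfsg.Agent.Lib.Helper2.finite_irrCharacter (G := G)
  have : Fintype (IrrCharacter G) := Fintype.ofFinite _
  rw [← sum_charDegree_sq (G := G)]
  exact Finset.sum_le_sum_of_subset (Finset.subset_univ J)

theorem restrict_cases [Fintype G] (M : Subgroup G) [hM : M.Normal] [Fintype M]
    {p : ℕ} (hp : p.Prime) (hidx : M.index = p) {χ : G → ℂ} (hχ : IsIrrCharacter G χ) :
    ∃ (θ : M → ℂ) (e : ℕ), IsIrrCharacter M θ ∧
      ((χ 1 = e * θ 1 ∧ e ^ 2 ≤ p) ∨
       ((inertia M θ).index = p ∧ χ 1 = e * (p * θ 1))) := by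
  classical
  have hχM : IsCharacter M (fun n : M => χ n) :=
    Helper7.isCharacter_restrict (Helper7.isCharacter_of_irr hχ) M
  have hne : (fun n : M => χ n) ≠ 0 := by
    intro h0
    exact Helper7.irr_apply_one_ne_zero hχ (congrFun h0 1)
  obtain ⟨θ, hθ, hc⟩ := exists_irr_constituent hχM hne
  obtain ⟨e, he⟩ := Cfsg.Agent.Lib.Helper2.IsCharacter.classInner_nat hχM
    (Helper7.isCharacter_of_irr hθ)
  refine ⟨θ, e, hθ, ?_⟩
  have hle : M ≤ inertia M θ :=
    le_inertia M (Helper7.isClassFunction_of_isCharacter (Helper7.isCharacter_of_irr hθ))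
  have hdvd : (inertia M θ).index ∣ p := hidx ▸ Subgroup.index_dvd_of_le hle
  rcases (Nat.dvd_prime hp).1 hdvd with h1 | h1
  · left
    have htop : inertia M θ = ⊤ := Subgroup.index_eq_one.1 h1
    have hinv : ∀ g : G, conjFun M θ g = θ := by
      intro g
      have : g ∈ inertia M θ := htop ▸ Subgroup.mem_top g
      exact this
    have h := restrict_eq_smul_of_invariant M hχ hθ hc hinv
    rw [he] at h
    refine ⟨by simpa using congrFun h 1, ?_⟩
    have hn1 : ∑ m : M, ‖χ m‖ ^ 2 = (e : ℝ) ^ 2 * (Nat.card M : ℝ) := by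
      rw [← sum_norm_sq_eq_card hθ, Finset.mul_sum]
      refine Finset.sum_congr rfl fun m _ => ?_
      have := congrFun h m
      simp only [Pi.smul_apply, smul_eq_mul] at this
      rw [this, norm_mul, mul_pow, Complex.norm_natCast]
    have hn2 : ∑ m : M, ‖χ m‖ ^ 2 ≤ ∑ g : G, ‖χ g‖ ^ 2 := by
      rw [← Finset.sum_subtype (Finset.univ.filter (· ∈ M)) (by simp) (fun g => ‖χ g‖ ^ 2)]
      exact Finset.sum_le_sum_of_subset_of_nonneg (Finset.subset_univ _)
        (fun _ _ _ => by positivity)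
    rw [hn1, sum_norm_sq_eq_card hχ, ← M.card_mul_index, hidx] at hn2
    have hMpos : (0 : ℝ) < (Nat.card M : ℝ) := by exact_mod_cast Nat.card_pos
    push_cast at hn2
    have h3 : (e : ℝ) ^ 2 ≤ p := by
      by_contra hcon
      push Not at hcon
      nlinarith
    exact_mod_cast h3
  · right
    refine ⟨h1, ?_⟩
    have := clifford_degree M hχ hθ hc (inertia M θ) (mem_inertia M θ)
    rw [he, h1] at this
    exact this

open Classical in
theorem card_orbit [Fintype G] (M : Subgroup G) [hM : M.Normal] (θ : M → ℂ) :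
    (Finset.univ.image (conjFun M θ)).card = (inertia M θ).index := by
  have h := sum_comp_conjFun M θ (fun _ => (1 : ℕ))
  have hcard : Nat.card {g : G // ∀ h : M, θ ⟨g * h * g⁻¹, hM.conj_mem h h.2 g⟩ = θ h}
      = Nat.card (inertia M θ) := by
    apply Nat.card_congr
    apply Equiv.subtypeEquivRight
    intro g
    exact (mem_inertia M θ g).symm
  rw [hcard] at h
  simp only [Finset.sum_const, Finset.card_univ, smul_eq_mul, mul_one] at h
  rw [← Nat.card_eq_fintype_card, ← (inertia M θ).card_mul_index] at h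
  exact (Nat.eq_of_mul_eq_mul_left Nat.card_pos h).symm

end Cfsg.Agent.Lib.Helper2.PrimeIdx
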