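import Mathlib
import Cfsg.Prelude.Def_Characters
import Cfsg.Agent.Lib.Helper2.CharKer
import Cfsg.Agent.Lib.Helper2.CharMore
import Cfsg.Agent.Lib.Helper2.ZStar
import Cfsg.Agent.Lib.Helper2.Quat5
import Cfsg.Agent.Lib.Lead.Iso

set_option autoImplicit false

namespace Cfsg.Agent.Lib.Helper2

open Module Representation
open scoped ComplexConjugate commutatorElement

universe u
variable {G : Type u} [Group G]

/-- an irreducible character with the commutator subgroup in its kernel is linear -/
theorem IsIrrCharacter.apply_one_eq_one_of_commutator_le [Finite G] {χ : G → ℂ}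
    (hχ : Cfsg.IsIrrCharacter G χ) (h : ∀ g ∈ commutator G, χ g = χ 1) : χ 1 = 1 := by
  classical
  cases nonempty_fintype G
  have hnorm := irr_norm_one hχ
  obtain ⟨n, ρ, hρ, rfl⟩ := hχ
  have hker : ∀ g ∈ commutator G, ρ g = LinearMap.id := by
    intro g hg
    have := h g hg
    rw [char_one] at this
    exact (char_eq_finrank_iff ρ g).1 this
  have hcomm : ∀ g k : G, ρ g ∘ₗ ρ k = ρ k ∘ₗ ρ g := by
    intro g k
    have h1 : g * k = ⁅g, k⁆ * (k * g) := by rw [commutatorElement_def]; group
    have h2 : ρ (g * k) = ρ (k * g) := by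
      rw [h1, map_mul, hker _ (Subgroup.commutator_mem_commutator (Subgroup.mem_top g)
        (Subgroup.mem_top k))]
      rfl
    rw [map_mul, map_mul] at h2
    exact h2
  have hsc : ∀ g : G, ‖ρ.character g‖ = (finrank ℂ (Fin n → ℂ) : ℝ) := by
    intro g
    rw [norm_char_eq_iff]
    exact schur ρ (ρ g) (fun k => hcomm g k)
  rw [classInner_def] at hnorm
  have h3 : ∀ g : G, ρ.character g * conj (ρ.character g) = ((finrank ℂ (Fin n → ℂ) : ℂ)) ^ 2 := by
    intro g
    rw [Complex.mul_conj, Complex.normSq_eq_norm_sq, hsc]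
    push_cast; ring
  rw [Finset.sum_congr rfl fun g _ => h3 g, Finset.sum_const, Finset.card_univ, nsmul_eq_mul,
    ← Nat.card_eq_fintype_card, inv_mul_cancel_left₀ card_ne_zero'] at hnorm
  rw [char_one]
  have h4 : (finrank ℂ (Fin n → ℂ)) ^ 2 = 1 := by exact_mod_cast hnorm
  have h5 : finrank ℂ (Fin n → ℂ) = 1 := by
    rcases Nat.eq_zero_or_pos (finrank ℂ (Fin n → ℂ)) with h0 | h0
    · rw [h0] at h4; simp at h4
    · nlinarith
  rw [h5]; simp

/-- a generalized quaternion group has a unique involution -/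
theorem quat_unique_invol (q : ℕ) [NeZero q] (x : QuaternionGroup q) (hx : orderOf x = 2) :
    x = QuaternionGroup.a q := by
  cases x with
  | xa i => rw [QuaternionGroup.orderOf_xa] at hx; omega
  | a i =>
    have h1 : (QuaternionGroup.a i : QuaternionGroup q) ^ 2 = 1 := by
      rw [← hx]; exact pow_orderOf_eq_one _
    rw [sq, QuaternionGroup.a_mul_a, QuaternionGroup.one_def, QuaternionGroup.a.injEq] at h1
    have hi0 : i ≠ 0 := by
      rintro rfl
      rw [QuaternionGroup.a_zero, orderOf_one] at hx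
      omega
    have : NeZero (2 * q) := ⟨by have := NeZero.ne q; omega⟩
    have h2 : ((i.val + i.val : ℕ) : ZMod (2 * q)) = 0 := by
      push_cast
      rw [ZMod.natCast_zmod_val]; exact h1
    rw [ZMod.natCast_eq_zero_iff] at h2
    have h3 : i.val < 2 * q := ZMod.val_lt i
    have h4 : i.val ≠ 0 := by
      intro h; exact hi0 ((ZMod.val_eq_zero i).1 h)
    obtain ⟨k, hk⟩ := h2
    have h5 : i.val = q := by
      have hk1 : k = 1 := by
        rcases Nat.lt_or_ge k 1 with h | h
        · have : k = 0 := by omega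
          subst this; omega
        · rcases Nat.lt_or_ge k 2 with h' | h'
          · omega
          · have : 2 * q * 2 ≤ 2 * q * k := Nat.mul_le_mul_left _ h'
            omega
      subst hk1; omega
    congr 1
    rw [← ZMod.natCast_zmod_val i, h5]

theorem quat_unique_invol' {S : Subgroup G} (q : ℕ) [NeZero q] (e : S ≃* QuaternionGroup q)
    {x y : G} (hx : x ∈ S) (hy : y ∈ S) (hx2 : orderOf x = 2) (hy2 : orderOf y = 2) : x = y := by
  have h1 : e ⟨x, hx⟩ = QuaternionGroup.a q := by
    apply quat_unique_invol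
    rw [MulEquiv.orderOf_eq, ← Subgroup.orderOf_coe]; exact hx2
  have h2 : e ⟨y, hy⟩ = QuaternionGroup.a q := by
    apply quat_unique_invol
    rw [MulEquiv.orderOf_eq, ← Subgroup.orderOf_coe]; exact hy2
  have := e.injective (h1.trans h2.symm)
  exact congrArg Subtype.val this

/-- commuting involutions coincide when Sylow 2-subgroups have a unique involution -/
theorem eq_of_commute_invol [Finite G] (S : Sylow 2 G)
    (huniq : ∀ x ∈ S, ∀ y ∈ S, orderOf x = 2 → orderOf y = 2 → x = y) {a b : G}
    (ha : orderOf a = 2) (hb : orderOf b = 2) (hc : Commute a b) : a = b := by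
  have : Fact (Nat.Prime 2) := ⟨Nat.prime_two⟩
  have ha2 := Cfsg.Agent.Lib.Lead.mul_self_of_orderOf_two ha
  have hb2 := Cfsg.Agent.Lib.Lead.mul_self_of_orderOf_two hb
  obtain ⟨Q, hQ⟩ := (Cfsg.Agent.Lib.Lead.isPGroup_closure_commuting_invol ha2 hb2 hc).exists_le_sylow
  obtain ⟨k, hk⟩ := MulAction.exists_smul_eq G S Q
  have h1 : a ∈ Q := hQ (Subgroup.subset_closure (by simp))
  have h2 : b ∈ Q := hQ (Subgroup.subset_closure (by simp))
  rw [← hk, Cfsg.Agent.Lib.Lead.mem_sylow_smul_iff] at h1 h2
  have hord : ∀ y : G, orderOf (k⁻¹ * y * k) = orderOf y := by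
    intro y
    have := orderOf_conj' k⁻¹ y
    rwa [inv_inv] at this
  have h3 := huniq _ h1 _ h2 (by rw [hord, ha]) (by rw [hord, hb])
  exact mul_left_cancel (mul_right_cancel h3)

/-- the product of two involutions has odd order when Sylow 2-subgroups have a unique
involution -/
theorem odd_orderOf_mul_invol [Finite G] (S : Sylow 2 G)
    (huniq : ∀ x ∈ S, ∀ y ∈ S, orderOf x = 2 → orderOf y = 2 → x = y) {a b : G}
    (ha : orderOf a = 2) (hb : orderOf b = 2) : Odd (orderOf (a * b)) := by
  by_contra hodd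
  rw [Nat.not_odd_iff_even] at hodd
  obtain ⟨k, hk⟩ := hodd
  have ha2 := Cfsg.Agent.Lib.Lead.mul_self_of_orderOf_two ha
  have hb2 := Cfsg.Agent.Lib.Lead.mul_self_of_orderOf_two hb
  have hainv : a⁻¹ = a := Cfsg.Agent.Lib.Lead.inv_eq_self_of_orderOf_two ha
  have hbinv : b⁻¹ = b := Cfsg.Agent.Lib.Lead.inv_eq_self_of_orderOf_two hb
  have hpos : 0 < orderOf (a * b) := orderOf_pos _
  have hk0 : k ≠ 0 := by omega
  have hz : orderOf ((a * b) ^ k) = 2 := by
    rw [orderOf_pow_of_dvd hk0 ⟨2, by omega⟩, hk]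
    have : k + k = 2 * k := by ring
    rw [this]
    exact Nat.mul_div_cancel _ (Nat.pos_of_ne_zero hk0)
  have hconj : a * (a * b) * a⁻¹ = (a * b)⁻¹ := by
    rw [mul_inv_rev, hainv, hbinv, ← mul_assoc, ha2, one_mul]
  have hconjz : a * (a * b) ^ k * a⁻¹ = ((a * b) ^ k)⁻¹ := by
    rw [← conj_pow, hconj, inv_pow]
  have hzinv : ((a * b) ^ k)⁻¹ = (a * b) ^ k := Cfsg.Agent.Lib.Lead.inv_eq_self_of_orderOf_two hz
  have hcz : Commute a ((a * b) ^ k) := by
    rw [hzinv] at hconjz
    exact mul_inv_eq_iff_eq_mul.1 hconjz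
  have haz : a = (a * b) ^ k := eq_of_commute_invol S huniq ha hz hcz
  have hcw : Commute a (a * b) := by
    have h0 : Commute ((a * b) ^ k) (a * b) := (Commute.refl (a * b)).pow_left k
    rwa [← haz] at h0
  have hcb : Commute a b := by
    have h1 : a * (a * b) = a * b * a := hcw.eq
    have h2 : a * b = b * a := by
      have := mul_left_cancel (a := a) (b := a * b) (c := b * a) (by rw [h1, mul_assoc])
      exact this
    exact h2
  have hab : a = b := eq_of_commute_invol S huniq ha hb hcb
  rw [← hab, ha2, orderOf_one] at hk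
  omega

end Cfsg.Agent.Lib.Helper2
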