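import Mathlib
import Cfsg.Agent.Lib.Helper2.Brauer7
import Cfsg.Agent.Lib.Helper2.CharMore
import Cfsg.Agent.Lib.Helper2.CharReg
import Cfsg.Agent.Lib.Helper7.CharBasic
import Cfsg.Agent.Lib.Helper25.HallCompl

set_option autoImplicit false

namespace Cfsg.Agent.Lib.Helper2

open Cfsg
open scoped ComplexConjugate

universe u

variable {G : Type u} [Group G]

/-- moving a factor to the other side of the inner product -/
theorem classInner_mul_left [Fintype G] (a b c : G → ℂ) :
    classInner (a * b) c = classInner b (c * fun g => conj (a g)) := by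
  rw [classInner_def, classInner_def]
  congr 1
  refine Finset.sum_congr rfl fun g _ => ?_
  simp only [Pi.mul_apply, map_mul, Complex.conj_conj]
  ring

/-- The version of Brauer's characterisation of characters with algebraic-integer
coefficients. -/
theorem isIntegral_classInner_mul_of_mem_linSpan [Fintype G] {θ : G → ℂ}
    (hθ : IsClassFunction G θ)
    (hE : ∀ (E : Subgroup G) (p : ℕ), p.Prime → IsElementary p E → ∀ ψ : E → ℂ,
      IsCharacter E ψ → ∀ [Fintype E], IsIntegral ℤ (classInner (fun e : E => θ e) ψ))
    {χ : G → ℂ} (hχ : IsCharacter G χ) {f : G → ℂ} (hf : f ∈ linSpan (G := G)) :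
    IsIntegral ℤ (classInner (f * θ) χ) := by
  classical
  unfold linSpan at hf
  induction hf using AddSubgroup.closure_induction with
  | mem x hx =>
    obtain ⟨E, lam, ⟨p, hp, hEl⟩, rfl⟩ := hx
    haveI : Fintype E := Fintype.ofFinite E
    rw [indFun_mul_classFunction E _ hθ,
      frobenius_reciprocity E _ χ (IsCharacter.isClassFunction hχ), classInner_mul_left]
    apply hE E p hp hEl
    exact IsCharacter.mul (IsCharacter.restrict E hχ) (IsCharacter.conj (isCharacter_of_hom lam))
  | zero => rw [zero_mul, classInner_zero_left]; exact isIntegral_zero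
  | add y z _ _ hy hz => rw [add_mul, classInner_add_left]; exact hy.add hz
  | neg y _ hy => rw [neg_mul, classInner_neg_left]; exact hy.neg

theorem isIntegral_classInner_of_elementary [Fintype G] {θ : G → ℂ}
    (hθ : IsClassFunction G θ)
    (hE : ∀ (E : Subgroup G) (p : ℕ), p.Prime → IsElementary p E → ∀ ψ : E → ℂ,
      IsCharacter E ψ → ∀ [Fintype E], IsIntegral ℤ (classInner (fun e : E => θ e) ψ))
    {χ : G → ℂ} (hχ : IsCharacter G χ) : IsIntegral ℤ (classInner θ χ) := by
  have h := isIntegral_classInner_mul_of_mem_linSpan hθ hE hχ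
    (char_mem_linSpan (IsCharacter.one (G := G)))
  have e : (fun _ => 1 : G → ℂ) * θ = θ := by
    funext g; simp
  rwa [e] at h

/-- Isaacs 8.19 in a general form: `n` times an integral class function of the
`n`-part of the argument has algebraic-integer coefficients. -/
theorem isIntegral_classInner_hallPart [Fintype G] {m n : ℕ} (hmn : Nat.card G = m * n)
    (hcop : Nat.Coprime m n) (s t : ℤ) (hst : s * n + t * m = 1) {h : G → ℂ}
    (hh : IsClassFunction G h) (hint : ∀ g, IsIntegral ℤ (h g))
    {χ : G → ℂ} (hχ : IsCharacter G χ) :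
    IsIntegral ℤ (classInner (fun x => (n : ℂ) * h (x ^ (t * m))) χ) := by
  classical
  apply isIntegral_classInner_of_elementary _ _ hχ
  · intro g y
    simp only [conj_zpow]
    rw [hh]
  · intro E p hp hEl ψ hψ _
    haveI : Group.IsNilpotent E := IsElementary.isNilpotent hp hEl
    have hcard : Nat.card E ∣ n * m := by
      rw [mul_comm, ← hmn]; exact Subgroup.card_subgroup_dvd_card E
    obtain ⟨W, hW, hmem⟩ := Helper25.exists_hall_zpow_mem hcop.symm hcard t
    let β : E →* W :=
      { toFun := fun e => ⟨e ^ (t * m), hmem e⟩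
        map_one' := by apply Subtype.ext; simp
        map_mul' := fun a b => by
          apply Subtype.ext
          exact Helper25.zpow_mul_of_nilpotent hcop.symm hcard s t hst a b }
    haveI : Fintype W := Fintype.ofFinite W
    haveI : Finite (IrrCharacter W) := finite_irrCharacter
    haveI : Fintype (IrrCharacter W) := Fintype.ofFinite _
    let fW : W → ℂ := fun w => (n : ℂ) * h ((w : E) : G)
    have hfW : IsClassFunction W fW := by
      intro a b
      simp only [fW, Subgroup.coe_mul, Subgroup.coe_inv]
      rw [hh]
    have hexp := IsClassFunction.eq_sum_irr hfW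
    have hθ : (fun e : E => (n : ℂ) * h ((e : G) ^ (t * m))) =
        ∑ μ : IrrCharacter W, classInner fW μ • ((μ : W → ℂ) ∘ β) := by
      funext e
      have h1 : fW (β e) = (n : ℂ) * h ((e : G) ^ (t * m)) := by
        simp only [fW, β, MonoidHom.coe_mk, OneHom.coe_mk, Subgroup.coe_zpow]
      rw [← h1, hexp]
      simp only [Finset.sum_apply, Pi.smul_apply, Function.comp_apply]
      rw [← hexp]
    rw [hθ, classInner_sum_left]
    refine IsIntegral.sum _ fun μ _ => ?_
    rw [classInner_smul_left]
    apply IsIntegral.mul
    · obtain ⟨c, hc⟩ := hW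
      rw [classInner_def]
      have h2 : ∑ w : W, fW w * conj ((μ : W → ℂ) w) =
          (n : ℂ) * ∑ w : W, h ((w : E) : G) * conj ((μ : W → ℂ) w) := by
        rw [Finset.mul_sum]
        refine Finset.sum_congr rfl fun w _ => by simp only [fW]; ring
      have h3 : (Nat.card W : ℂ) ≠ 0 := by exact_mod_cast Nat.card_pos.ne'
      rw [h2, ← mul_assoc, hc]
      push_cast
      rw [← mul_assoc, inv_mul_cancel₀ h3, one_mul]
      apply IsIntegral.mul (isIntegral_natCast _)
      refine IsIntegral.sum _ fun w _ => (hint _).mul ?_
      have h4 := Helper7.char_isIntegral (IsCharacter.conj (IsIrrCharacter.isCharacter μ.2)) w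
      exact h4
    · obtain ⟨k, hk⟩ := IsCharacter.classInner_nat
        (IsCharacter.comp β (IsIrrCharacter.isCharacter μ.2)) hψ
      rw [hk]
      exact isIntegral_natCast _

end Cfsg.Agent.Lib.Helper2
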